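import Cfsg.Agent.H811.PSq.NfNeg
import Cfsg.Agent.H811.PSq.Exc
import Cfsg.Agent.H115.HC.TwoDFour
import Cfsg.Agent.H504.ZerosD4
import Cfsg.Agent.S1092

/-!
# `³D₄(q)`: a degree divisible by `p ^ 2` for `5 ≤ p ∣ q - 1` (helper811, S4844)
-/

set_option autoImplicit false
set_option linter.unusedSectionVars false

open Cfsg

namespace Cfsg.Agent.H811.PSq.TwD

open CoxeterSystem Cfsg.Agent.ChevalleyStructure.CoxeterGeom Cfsg.Agent.Tits.Roots Cfsg.Agent.Tits.Core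
  Cfsg.Agent.Tits.RootComb Cfsg.Agent.Nodes.Comb Cfsg.Agent.Nodes.Reps Cfsg.Agent.Nodes.BNOf
  Cfsg.Agent.Nodes.BNOf.RGD Cfsg.Agent.Nodes.RGDChev Cfsg.Agent.Nodes.RGDFold
open Cfsg.Agent.Nodes.Bruhat Cfsg.Agent.Nodes.LeviDec Cfsg.Agent.H53.HC Cfsg.Agent.H115.HC
open Cfsg.Lie Cfsg.Agent.ChevalleyStructure Cfsg.Agent.ChevalleyStructure.TwistedU
  Cfsg.Agent.ChevalleyStructure.TwistedFix Cfsg.Agent.ChevalleyStructure.TwistedFixOrbit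
open Cfsg.Agent.Nodes.RGDFoldSL
open Cfsg.Agent.ChevalleyStructure.SL2Hom (up lo mem_closure_SL2)
open Cfsg.Agent.BiChar.TwDFour Cfsg.Agent.H115.HC.TwDFour

/-- the value of `h_0(a) h_1(c)` (`a, c` in the small field) on the root `r` -/
def f0 (r : ℕ) : ℤ := chevD4.cartan 1 r
def f1 (r : ℕ) : ℤ := chevD4.cartan 0 r + chevD4.cartan 2 r + chevD4.cartan 3 r

set_option synthInstance.maxHeartbeats 400000 in
set_option synthInstance.maxSize 1000 in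
/-- the orbits of positive roots -/
theorem orb_tab : ∀ r < 24, (0 ≤ V chevD4 Nodes.RGDTwD4.J r 0 ∧ 0 ≤ V chevD4 Nodes.RGDTwD4.J r 1) →
    ∃ o ∈ Nodes.RGDTwD4.L, r ∈ o ∧
      (∀ k < 24, (V chevD4 Nodes.RGDTwD4.J k = V chevD4 Nodes.RGDTwD4.J r ↔ k ∈ o)) ∧ o.Nodup ∧
      (∀ k ∈ o, k < 24) ∧ ((Nodes.RGDTwD4.L.flatten.filter fun r => decide (r ∈ o)) = o) ∧
      (∀ s ∈ o, s = r ∨ s = Nodes.RGDTwD4.rho r ∨ s = Nodes.RGDTwD4.rho (Nodes.RGDTwD4.rho r)) ∧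
      Nodes.RGDTwD4.rho r ∈ o := by decide +kernel

set_option synthInstance.maxHeartbeats 400000 in
set_option synthInstance.maxSize 1000 in
theorem det_tab : ∀ s < 24, ∀ t < 24, (0 ≤ V chevD4 Nodes.RGDTwD4.J s 0 ∧ 0 ≤ V chevD4 Nodes.RGDTwD4.J s 1) →
    (0 ≤ V chevD4 Nodes.RGDTwD4.J t 0 ∧ 0 ≤ V chevD4 Nodes.RGDTwD4.J t 1) →
    (f0 s * f1 t - f0 t * f1 s = 0 → V chevD4 Nodes.RGDTwD4.J s = V chevD4 Nodes.RGDTwD4.J t) ∧
    (f0 s * f1 t - f0 t * f1 s ≠ 0 → f0 s * f1 t - f0 t * f1 s ∣ 6) := by decide +kernel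

theorem nroots_eq : chevD4.nroots = 24 := by decide +kernel

theorem tab2 : f0 14 = 2 ∧ f1 14 = -3 ∧ f0 18 = -1 ∧ f1 18 = 2 := by decide +kernel

/-- the fields -/
abbrev F0 {K : Type} [Field K] (φ : K →+* K) := Fx φ ((Nodes.RGDTwNode.D4.rest 0).length + 1)
abbrev F1 {K : Type} [Field K] (φ : K →+* K) := Fx φ ((Nodes.RGDTwNode.D4.rest 1).length + 1)

variable {K : Type} [Field K] {q : ℕ} {φ : K →+* K}

section

variable (hφ : ∀ x, φ x = x ^ q) (hle : twistedD4 K q ≤ D4Fixed.fix φ)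

theorem hS_one (i : Fin 2) : hS (1 : Fx φ ((Nodes.RGDTwNode.D4.rest i).length + 1)) = 1 := by
  apply Subtype.ext
  rw [coe_hS one_ne_zero, inv_one]
  exact Matrix.one_fin_two.symm

/-- the elements of the torus on a positive root group -/
theorem of_nf {a : (F0 φ)ˣ} {c : (F1 φ)ˣ} (hc : φ ((c : F1 φ) : K) = (c : F1 φ)) {r : ℕ} (hr : r < 24)
    (hpos : 0 ≤ V chevD4 Nodes.RGDTwD4.J r 0 ∧ 0 ≤ V chevD4 Nodes.RGDTwD4.J r 1)
    (hf : NF (Nodes.RGDTwD4.X φ q) (Ph hφ hle 0 (hS (a : F0 φ)) * Ph hφ hle 1 (hS (c : F1 φ)))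
      (V chevD4 Nodes.RGDTwD4.J r)) :
    ((a : F0 φ) : K) ^ f0 r * ((c : F1 φ) : K) ^ f1 r = 1 := by
  obtain ⟨o, ho, hro, hcls, hnd, hlt, hfil, hrot, hrr⟩ := orb_tab r hr hpos
  obtain ⟨v, hv, hv1, hcomm⟩ := hf
  have hcls' : ∀ k < chevD4.nroots, (V chevD4 Nodes.RGDTwD4.J k = V chevD4 Nodes.RGDTwD4.J r ↔ k ∈ o) := by
    rw [nroots_eq]
    exact hcls
  have hlt' : ∀ k ∈ o, k < chevD4.nroots := by
    rw [nroots_eq]
    exact hlt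
  have hcK : ((c : F1 φ) : K) ≠ 0 := fun h => c.ne_zero (Subtype.ext h)
  by_contra hne
  apply hv1
  refine not_cen ho hcls' hnd hlt' hfil (s₀ := r) hro ?_
    (c := fun s => ((a : F0 φ) : K) ^ (chevD4.cartan 1 s) * (((c : F1 φ) : K) ^ (chevD4.cartan 0 s) *
      (φ ((c : F1 φ) : K)) ^ (chevD4.cartan 2 s) * (φ (φ ((c : F1 φ) : K))) ^ (chevD4.cartan 3 s))) ?_ ?_ hv hcomm
  · intro x hx h0 s hs
    have h1 : x (Nodes.RGDTwD4.rho r) = 0 := by rw [hx r hro, h0, map_zero, mul_zero]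
    rcases hrot s hs with rfl | rfl | rfl
    · exact h0
    · exact h1
    · rw [hx _ hrr, h1, map_zero, mul_zero]
  · intro s hs t
    rw [Subgroup.coe_mul, mul_assoc, Ph1_xG hφ hle c.ne_zero (hlt' s hs), ← mul_assoc,
      Ph0_xG hφ hle a.ne_zero (hlt' s hs), mul_assoc, mul_assoc ((((a : F0 φ) : K) ^ (chevD4.cartan 1 s)))]
  · intro h1
    apply hne
    have h2 : ((a : F0 φ) : K) ^ (chevD4.cartan 1 r) * (((c : F1 φ) : K) ^ (chevD4.cartan 0 r) *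
      (φ ((c : F1 φ) : K)) ^ (chevD4.cartan 2 r) * (φ (φ ((c : F1 φ) : K))) ^ (chevD4.cartan 3 r)) = 1 := h1
    rw [hc, hc, ← zpow_add₀ hcK, ← zpow_add₀ hcK] at h2
    exact h2

end

section fin

variable [Fintype K] {p : ℕ} [Fact p.Prime] [CharP K p] (hφ : ∀ x, φ x = x ^ q)
  (hle : twistedD4 K q ≤ D4Fixed.fix φ) (hK : Fintype.card K = q ^ 3)

/-- `h_0(a) h_1(c)` -/
noncomputable def tt : (F0 φ)ˣ × (F1 φ)ˣ →* ↥(twistedD4 K q) where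
  toFun x := Ph hφ hle 0 (hS (x.1 : F0 φ)) * Ph hφ hle 1 (hS (x.2 : F1 φ))
  map_one' := by
    change Ph hφ hle 0 (hS ((1 : (F0 φ)ˣ) : F0 φ)) * Ph hφ hle 1 (hS ((1 : (F1 φ)ˣ) : F1 φ)) = 1
    rw [Units.val_one, Units.val_one, hS_one, hS_one, map_one, map_one, one_mul]
  map_mul' x y := by
    change Ph hφ hle 0 (hS ((x.1 * y.1 : (F0 φ)ˣ) : F0 φ)) * Ph hφ hle 1 (hS ((x.2 * y.2 : (F1 φ)ˣ) : F1 φ)) = _
    rw [Units.val_mul, Units.val_mul, ← hS_mul x.1.ne_zero y.1.ne_zero, ← hS_mul x.2.ne_zero y.2.ne_zero,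
      map_mul, map_mul]
    have h1 := T_comm _ (Cfsg.Agent.BiChar.TwDFour.Ph_hS hφ hle 0 y.1.ne_zero) _
      (Cfsg.Agent.BiChar.TwDFour.Ph_hS hφ hle 1 x.2.ne_zero)
    generalize Ph hφ hle 0 (hS (y.1 : F0 φ)) = b at h1 ⊢
    generalize Ph hφ hle 1 (hS (x.2 : F1 φ)) = c at h1 ⊢
    generalize Ph hφ hle 0 (hS (x.1 : F0 φ)) = a
    generalize Ph hφ hle 1 (hS (y.2 : F1 φ)) = d
    calc a * b * (c * d) = a * (b * c) * d := by group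
      _ = a * (c * b) * d := by rw [h1]
      _ = a * c * (b * d) := by group

theorem tt_apply (x : (F0 φ)ˣ × (F1 φ)ˣ) :
    tt hφ hle x = Ph hφ hle 0 (hS (x.1 : F0 φ)) * Ph hφ hle 1 (hS (x.2 : F1 φ)) := rfl

theorem tt_mem (x : (F0 φ)ˣ × (F1 φ)ˣ) : tt hφ hle x ∈ Nodes.RGDTwD4.T K q :=
  mul_mem (Cfsg.Agent.BiChar.TwDFour.Ph_hS hφ hle 0 x.1.ne_zero)
    (Cfsg.Agent.BiChar.TwDFour.Ph_hS hφ hle 1 x.2.ne_zero)

theorem eq_one_of_pow {a : K} {ℓ : ℕ} (hℓ : ℓ.Prime) (h5 : 5 ≤ ℓ) (ha : a ^ ℓ = 1) {D : ℤ}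
    (hD : D ∣ 6) (h : a ^ D = 1) : a = 1 := by
  have ha0 : a ≠ 0 := by
    rintro rfl
    rw [zero_pow hℓ.ne_zero] at ha
    exact zero_ne_one ha
  have h0 : (Units.mk0 a ha0) ^ ℓ = 1 := Units.ext (by rw [Units.val_pow_eq_pow_val, Units.val_mk0, ha, Units.val_one])
  have h0' : (Units.mk0 a ha0) ^ D = 1 :=
    Units.ext (by rw [Units.val_zpow_eq_zpow_val, Units.val_mk0, h, Units.val_one])
  have h1 : orderOf (Units.mk0 a ha0) ∣ ℓ := orderOf_dvd_of_pow_eq_one h0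
  have h2 : (orderOf (Units.mk0 a ha0) : ℤ) ∣ D := orderOf_dvd_iff_zpow_eq_one.2 h0'
  have h3 : orderOf (Units.mk0 a ha0) ∣ 6 := by exact_mod_cast h2.trans hD
  rcases (Nat.dvd_prime hℓ).1 h1 with h4 | h4
  · have h5 := orderOf_eq_one_iff.1 h4
    have h6 := congrArg Units.val h5
    rwa [Units.val_mk0, Units.val_one] at h6
  · rw [h4] at h3
    have h6 := Nat.le_of_dvd (by norm_num) h3
    interval_cases ℓ
    · omega
    · exact absurd hℓ (by norm_num)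

/-- elements of order dividing `ℓ ∣ q - 1` are fixed by `φ` -/
theorem fix_of_pow {ℓ : ℕ} (hφ : ∀ x, φ x = x ^ q) (hq : 1 ≤ q) (hd : ℓ ∣ q - 1) {c : K} (hc : c ^ ℓ = 1) :
    φ c = c := by
  obtain ⟨m, hm⟩ := hd
  rw [hφ, show q = ℓ * m + 1 by omega, pow_succ, pow_mul, hc, one_pow, one_mul]

theorem hone {ℓ : ℕ} (hℓ : ℓ.Prime) (h5 : 5 ≤ ℓ) (hq : 1 ≤ q) (hd : ℓ ∣ q - 1) {x : (F0 φ)ˣ × (F1 φ)ˣ}
    (h1 : x.1 ^ ℓ = 1) (h2 : x.2 ^ ℓ = 1) (hx : tt hφ hle x ≠ 1) (z z' : Fin 2 → ℤ)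
    (hz : IsRoot cs Nodes.RGDTwD4.isCartan z) (hz' : IsRoot cs Nodes.RGDTwD4.isCartan z') (hz0 : 0 ≤ z) (hz0' : 0 ≤ z')
    (hf : NF (Nodes.RGDTwD4.X φ q) (tt hφ hle x) z) (hf' : NF (Nodes.RGDTwD4.X φ q) (tt hφ hle x) z') : z = z' := by
  obtain ⟨s, hs, rfl⟩ := (Nodes.RGDTwD4.foldData.isRoot_iff (cs := cs) (h := Nodes.RGDTwD4.isCartan)
    Nodes.RGDTwD4.hp.checked (fun i r hr => wp_lt Nodes.RGDTwD4.hp (Nodes.RGDTwD4.J i) hr) z).1 hz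
  obtain ⟨t, ht, rfl⟩ := (Nodes.RGDTwD4.foldData.isRoot_iff (cs := cs) (h := Nodes.RGDTwD4.isCartan)
    Nodes.RGDTwD4.hp.checked (fun i r hr => wp_lt Nodes.RGDTwD4.hp (Nodes.RGDTwD4.J i) hr) z').1 hz'
  rw [nroots_eq] at hs ht
  have a1 : ((x.1 : F0 φ) : K) ^ ℓ = 1 := by
    have := congrArg (fun u : (F0 φ)ˣ => ((u : F0 φ) : K)) h1
    exact this
  have c1 : ((x.2 : F1 φ) : K) ^ ℓ = 1 := by
    have := congrArg (fun u : (F1 φ)ˣ => ((u : F1 φ) : K)) h2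
    exact this
  have hfix := fix_of_pow (φ := φ) hφ hq hd c1
  have e1 := of_nf hφ hle (a := x.1) (c := x.2) hfix hs ⟨hz0 0, hz0 1⟩ hf
  have e2 := of_nf hφ hle (a := x.1) (c := x.2) hfix ht ⟨hz0' 0, hz0' 1⟩ hf'
  obtain ⟨d1, d2⟩ := det_tab s hs t ht ⟨hz0 0, hz0 1⟩ ⟨hz0' 0, hz0' 1⟩
  by_cases hD : f0 s * f1 t - f0 t * f1 s = 0
  · exact d1 hD
  · exfalso
    apply hx
    have a0 : ((x.1 : F0 φ) : K) ≠ 0 := fun h => x.1.ne_zero (Subtype.ext h)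
    have c0 : ((x.2 : F1 φ) : K) ≠ 0 := fun h => x.2.ne_zero (Subtype.ext h)
    generalize hA : ((x.1 : F0 φ) : K) = a at a1 a0 e1 e2
    generalize hC : ((x.2 : F1 φ) : K) = c at c1 c0 e1 e2
    have g1 : a ^ (f0 s * f1 t - f0 t * f1 s) = 1 := by
      have e3 : (a ^ f0 s * c ^ f1 s) ^ f1 t * ((a ^ f0 t * c ^ f1 t) ^ f1 s)⁻¹ = 1 := by
        rw [e1, e2, one_zpow, one_zpow, inv_one, mul_one]
      rw [mul_zpow, mul_zpow, ← zpow_mul, ← zpow_mul, ← zpow_mul, ← zpow_mul, mul_comm (f1 t) (f1 s), mul_inv,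
        mul_mul_mul_comm, mul_inv_cancel₀ (zpow_ne_zero _ c0), mul_one] at e3
      rw [zpow_sub₀ a0, div_eq_mul_inv, e3]
    have g2 : c ^ (f0 s * f1 t - f0 t * f1 s) = 1 := by
      have e3 : (a ^ f0 t * c ^ f1 t) ^ f0 s * ((a ^ f0 s * c ^ f1 s) ^ f0 t)⁻¹ = 1 := by
        rw [e1, e2, one_zpow, one_zpow, inv_one, mul_one]
      rw [mul_zpow, mul_zpow, ← zpow_mul, ← zpow_mul, ← zpow_mul, ← zpow_mul, mul_comm (f0 t) (f0 s), mul_inv,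
        mul_mul_mul_comm, mul_inv_cancel₀ (zpow_ne_zero _ a0), one_mul, mul_comm (f1 t) (f0 s),
        mul_comm (f1 s) (f0 t)] at e3
      rw [zpow_sub₀ c0, div_eq_mul_inv, e3]
    have k1 := eq_one_of_pow hℓ h5 a1 (d2 hD) g1
    have k2 := eq_one_of_pow hℓ h5 c1 (d2 hD) g2
    have k3 : x = 1 := Prod.ext (Units.ext (Subtype.ext (hA.trans k1))) (Units.ext (Subtype.ext (hC.trans k2)))
    rw [k3, map_one]

include p hK in
theorem tt_eq_one {ℓ : ℕ} (hq : 1 ≤ q) (hd : ℓ ∣ q - 1) {x : (F0 φ)ˣ × (F1 φ)ˣ} (h2 : x.2 ^ ℓ = 1)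
    (hx : tt hφ hle x = 1) : x = 1 := by
  have Rg := Nodes.RGDTwD4.rgd (K := K) cs hK hφ p
  have c1 : ((x.2 : F1 φ) : K) ^ ℓ = 1 := by
    have := congrArg (fun u : (F1 φ)ˣ => ((u : F1 φ) : K)) h2
    exact this
  have hfix := fix_of_pow (φ := φ) hφ hq hd c1
  have key : ∀ i : Fin 2, NF (Nodes.RGDTwD4.X φ q) (Ph hφ hle 0 (hS (x.1 : F0 φ)) * Ph hφ hle 1 (hS (x.2 : F1 φ)))
      (sr i) := by
    intro i
    refine ⟨Ph hφ hle i (up 1), (mem_X hφ hle i _).2 ⟨1, rfl⟩, fun h => ?_, ?_⟩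
    · have h3 : Ph hφ hle i (up 1) = Ph hφ hle i (up 0) := by
        rw [h, show (up 0 : Matrix.SpecialLinearGroup (Fin 2) (Fx φ ((Nodes.RGDTwNode.D4.rest i).length + 1))) = 1 from
          Subtype.ext Matrix.one_fin_two.symm, map_one]
      exact one_ne_zero (up_inj hφ hle i h3)
    · rw [← tt_apply, hx, one_mul, mul_one]
  obtain ⟨t1, t2, t3, t4⟩ := tab2
  have v14 : V chevD4 Nodes.RGDTwD4.J 14 = sr 0 ∧ V chevD4 Nodes.RGDTwD4.J 18 = sr 1 := by decide +kernel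
  have k0 := of_nf hφ hle (a := x.1) (c := x.2) hfix (r := 14) (by norm_num) (by decide +kernel)
    (by rw [v14.1]; exact key 0)
  have k1 := of_nf hφ hle (a := x.1) (c := x.2) hfix (r := 18) (by norm_num) (by decide +kernel)
    (by rw [v14.2]; exact key 1)
  rw [t1, t2] at k0
  rw [t3, t4] at k1
  have a0 : ((x.1 : F0 φ) : K) ≠ 0 := fun h => x.1.ne_zero (Subtype.ext h)
  have c0 : ((x.2 : F1 φ) : K) ≠ 0 := fun h => x.2.ne_zero (Subtype.ext h)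
  generalize hA : ((x.1 : F0 φ) : K) = a at a0 k0 k1
  generalize hC : ((x.2 : F1 φ) : K) = c at c0 k0 k1
  have e1 : a = c ^ (2 : ℤ) := by
    rw [zpow_neg_one, inv_mul_eq_one₀ a0] at k1
    exact k1
  rw [e1, ← zpow_mul, ← zpow_add₀ c0] at k0
  norm_num at k0
  rw [k0, one_zpow] at e1
  exact Prod.ext (Units.ext (Subtype.ext (hA.trans e1))) (Units.ext (Subtype.ext (hC.trans k0)))

include hφ hle hK in
/-- the order of the root group of the node `1` -/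
theorem card_X1 : Nat.card (Nodes.RGDTwD4.X φ q (sr 1)) = q ^ 3 := by
  rw [← card_Fx1 hφ hK]
  symm
  refine Nat.card_congr (Equiv.ofBijective (fun t => (⟨Ph hφ hle 1 (up t), (mem_X hφ hle 1 _).2 ⟨t, rfl⟩⟩ :
    Nodes.RGDTwD4.X φ q (sr 1))) ⟨fun a b hab => up_inj hφ hle 1 (congrArg Subtype.val hab), ?_⟩)
  rintro ⟨g, hg⟩
  obtain ⟨t, ht⟩ := (mem_X hφ hle 1 g).1 hg
  exact ⟨t, Subtype.ext ht.symm⟩

end fin

/-- the primes dividing `q⁴ - q² + 1` -/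
theorem prime_aux {q r : ℕ} (hq : 2 ≤ q) (hr : r.Prime) (hra : r ∣ q ^ 2 * (q ^ 2 - 1) + 1) :
    ¬ r ∣ q ∧ ¬ r ∣ q ^ 6 - 1 := by
  have h1 : ¬ r ∣ q := fun h => by
    have h2 : r ∣ q ^ 2 * (q ^ 2 - 1) := (dvd_pow h (by norm_num)).mul_right _
    exact hr.one_lt.ne' (Nat.dvd_one.1 ((Nat.dvd_add_right h2).1 hra))
  refine ⟨h1, fun h => ?_⟩
  obtain ⟨k, hk⟩ := Nat.exists_eq_add_of_le (show 1 ≤ q ^ 2 from Nat.one_le_pow _ _ (by omega))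
  have e1 : (q ^ 2 * (q ^ 2 - 1) + 1) * (q ^ 2 + 1) = (q ^ 6 - 1) + 2 := by
    have e6 : q ^ 6 = (q ^ 2) ^ 3 := by ring
    rw [e6, hk, Nat.add_sub_cancel_left, show (1 + k) ^ 3 - 1 = k ^ 3 + 3 * k ^ 2 + 3 * k from
      Nat.sub_eq_of_eq_add (by ring)]
    ring
  have h2 : r ∣ (q ^ 6 - 1) + 2 := by
    rw [← e1]
    exact hra.mul_right _
  have h3 := (Nat.dvd_add_right h).1 h2
  have h4 := (Nat.prime_dvd_prime_iff_eq hr Nat.prime_two).1 h3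
  rw [h4] at hra
  have h5 : 2 ∣ q ^ 2 * (q ^ 2 - 1) := by
    have := (Nat.even_mul_pred_self (q ^ 2)).two_dvd
    exact this
  have h6 := (Nat.dvd_add_right h5).1 hra
  norm_num at h6

theorem dvd26 {q : ℕ} (hq : 1 ≤ q) : q ^ 2 - 1 ∣ q ^ 6 - 1 ∧ q ^ 3 + 1 ∣ q ^ 6 - 1 := by
  refine ⟨?_, ⟨q ^ 3 - 1, ?_⟩⟩
  · have := Nat.sub_dvd_pow_sub_pow (q ^ 2) 1 3
    rwa [one_pow, ← pow_mul] at this
  · obtain ⟨k, hk⟩ := Nat.exists_eq_add_of_le (show 1 ≤ q ^ 3 from Nat.one_le_pow _ _ (by omega))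
    rw [show q ^ 6 = (q ^ 3) ^ 2 by ring, hk, Nat.add_sub_cancel_left]
    exact Nat.sub_eq_of_eq_add (by ring)

theorem cop_aux {q : ℕ} (hq : 2 ≤ q) :
    (q ^ 12 * (q ^ 2 - 1) * (q ^ 6 - 1)).Coprime (q ^ 2 * (q ^ 2 - 1) + 1) ∧
      (q ^ 3 + 1).Coprime (q ^ 2 * (q ^ 2 - 1) + 1) := by
  obtain ⟨d1, d2⟩ := dvd26 (show 1 ≤ q by omega)
  refine ⟨Nat.coprime_of_dvd fun r hr h1 h2 => ?_, Nat.coprime_of_dvd fun r hr h1 h2 => ?_⟩
  · obtain ⟨a1, a2⟩ := prime_aux hq hr h2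
    rcases (hr.dvd_mul).1 h1 with h3 | h3
    · rcases (hr.dvd_mul).1 h3 with h4 | h4
      · exact a1 (hr.dvd_of_dvd_pow h4)
      · exact a2 (h4.trans d1)
    · exact a2 h3
  · exact (prime_aux hq hr h2).2 (h1.trans d2)

/-- **`³D₄(q)`, `5 ≤ p ∣ q - 1`.** -/
theorem _root_.Cfsg.Agent.H811.PSq.td_split {K : Type} [Field K] [Fintype K] {q : ℕ} (hq : IsPrimePow q)
    (hK : Fintype.card K = q ^ 3) {ℓ : ℕ} [hℓF : Fact ℓ.Prime] (h5 : 5 ≤ ℓ) (hd : ℓ ∣ q - 1) :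
    H33.IM (ℓ ^ 2) (twistedD4 K q) := by
  classical
  have hℓ := hℓF.1
  have := Fintype.ofFinite ↥(twistedD4 K q)
  have hq2 : 2 ≤ q := hq.two_le
  have hq6 : 6 ≤ q := by
    have := Nat.le_of_dvd (by omega) hd
    omega
  obtain ⟨r, hch⟩ := CharP.exists K
  have hrr : Fact r.Prime := ⟨CharP.char_is_prime K r⟩
  obtain ⟨φ, hφ⟩ := D4Fixed.exists_frob hq hK
  have hle := D4Fixed.twisted_le_fix hK hφ
  have : Finite CoxeterMatrix.G₂.Group := Nodes.RGDChev.finite_W Cfsg.Agent.BiChar.GTwo.isType cs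
  have Rg := Nodes.RGDTwD4.rgd (K := K) cs hK hφ r
  have hW : Nat.card CoxeterMatrix.G₂.Group = 12 := Cfsg.Agent.S1092.result (⟨2, CoxeterMatrix.G₂⟩, 12) (by simp)
  -- the orders of the parabolic subgroups
  obtain ⟨a, ha⟩ : ∃ a, a = q ^ 2 * (q ^ 2 - 1) + 1 := ⟨_, rfl⟩
  obtain ⟨cop1, cop2⟩ := cop_aux hq2
  rw [← ha] at cop1 cop2
  have hcard := Cfsg.Agent.S1067.result (K := K) hq hK
  have hP0 : Nat.card ↥(PJ cs Nodes.RGDTwD4.isCartan (Nodes.RGDTwD4.T K q) (Nodes.RGDTwD4.X φ q) {0}) ∣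
      q ^ 12 * (q ^ 2 - 1) * (q ^ 6 - 1) := by
    have h1 := Subgroup.card_mul_index (PJ cs Nodes.RGDTwD4.isCartan (Nodes.RGDTwD4.T K q)
      (Nodes.RGDTwD4.X φ q) {0})
    rw [index_eq' (p := r) hφ hle hq hK, hcard, ← mul_assoc] at h1
    have h2 : 0 < q ^ 8 + q ^ 4 + 1 := by positivity
    exact ⟨q ^ 3 + 1, (Nat.eq_of_mul_eq_mul_right h2 h1).symm⟩
  have hB : ∀ i : Fin 2, Nat.card ↥(PJ cs Nodes.RGDTwD4.isCartan (Nodes.RGDTwD4.T K q) (Nodes.RGDTwD4.X φ q) {i}) =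
      Nat.card ↥(RGD.B cs Nodes.RGDTwD4.isCartan (Nodes.RGDTwD4.T K q) (Nodes.RGDTwD4.X φ q)) *
        (Nat.card (Nodes.RGDTwD4.X φ q (sr i)) + 1) := by
    intro i
    have h1 := Cfsg.Agent.H554.RG.relIndex_B_PJ_singleton Rg i
    rw [← h1]
    have h2 := Subgroup.relIndex_mul_relIndex ⊥ _ _ bot_le (B_le_PJ (cs := cs)
      (h := Nodes.RGDTwD4.isCartan) (T := Nodes.RGDTwD4.T K q) (X := Nodes.RGDTwD4.X φ q) (J := {i}))
    rw [Subgroup.relIndex_bot_left, Subgroup.relIndex_bot_left] at h2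
    exact h2.symm
  have hPc : ∀ i : Fin 2, (Nat.card ↥(PJ cs Nodes.RGDTwD4.isCartan (Nodes.RGDTwD4.T K q)
      (Nodes.RGDTwD4.X φ q) {i})).Coprime a := by
    have h0 : (Nat.card ↥(PJ cs Nodes.RGDTwD4.isCartan (Nodes.RGDTwD4.T K q)
      (Nodes.RGDTwD4.X φ q) {0})).Coprime a := Nat.Coprime.coprime_dvd_left hP0 cop1
    intro i
    fin_cases i
    · exact h0
    · change (Nat.card ↥(PJ cs Nodes.RGDTwD4.isCartan (Nodes.RGDTwD4.T K q)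
        (Nodes.RGDTwD4.X φ q) {1})).Coprime a
      rw [hB 1, card_X1 hφ hle hK]
      exact Nat.Coprime.mul_left (Nat.Coprime.coprime_dvd_left (Dvd.intro _ (hB 0).symm) h0) cop2
  -- the exceptional characters
  have hsub : ∀ d, ((q ^ d - 1 : ℕ) : ℤ) = (q : ℤ) ^ d - 1 := by
    intro d
    rw [Nat.cast_sub (Nat.one_le_pow _ _ (by omega))]
    push_cast
    rfl
  have hc : (Nat.card ↥(twistedD4 K q) : ℤ) = (q : ℤ) ^ 12 * ((q : ℤ) ^ 2 - 1) *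
      ((q : ℤ) ^ 6 - 1) * ((q : ℤ) ^ 8 + (q : ℤ) ^ 4 + 1) := by
    rw [hcard, Nat.cast_mul, Nat.cast_mul, Nat.cast_mul, hsub, hsub]
    push_cast
    ring
  have haz : (a : ℤ) = 1 - (q : ℤ) ^ 2 + (q : ℤ) ^ 4 := by
    rw [ha, Nat.cast_add, Nat.cast_mul, hsub]
    push_cast
    ring
  have hN : (Nat.card ↥(twistedD4 K q) : ℤ) = a * ((q : ℤ) ^ 12 * ((q : ℤ) ^ 2 - 1) *
      ((q : ℤ) ^ 6 - 1) * (1 + (q : ℤ) ^ 2 + (q : ℤ) ^ 4)) := by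
    rw [hc, haz]
    ring
  have hmod : (((q : ℤ) ^ 12 * ((q : ℤ) ^ 2 - 1) *
      ((q : ℤ) ^ 6 - 1) * (1 + (q : ℤ) ^ 2 + (q : ℤ) ^ 4) : ℤ) : ZMod a) = ((4 : ℕ) : ZMod a) := by
    have h5 : ((1 - (q : ℤ) ^ 2 + (q : ℤ) ^ 4 : ℤ) : ZMod a) = 0 := by
      rw [← haz]
      simp
    push_cast at h5 ⊢
    exact Cfsg.Agent.H504.ZerosMod.mod_D4_12 h5
  have h4 : 4 ∣ q ^ 2 * (q ^ 2 - 1) := by
    rcases Nat.even_or_odd q with he | ho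
    · exact Dvd.dvd.mul_right (by
        have := Nat.mul_dvd_mul he.two_dvd he.two_dvd
        rwa [← sq q] at this) _
    · refine Dvd.dvd.mul_left ?_ _
      obtain ⟨k, rfl⟩ := ho
      rw [show (2 * k + 1) ^ 2 - 1 = 4 * (k ^ 2 + k) from Nat.sub_eq_of_eq_add (by ring)]
      exact Dvd.intro _ rfl
  obtain ⟨s, hs⟩ := h4
  have hs12 : 12 < s := by
    have h36 : 36 ≤ q ^ 2 := by nlinarith
    have h7 : 36 * 35 ≤ q ^ 2 * (q ^ 2 - 1) := Nat.mul_le_mul h36 (by omega)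
    omega
  obtain ⟨E, hE1, hE2⟩ := exists_family (a := a) (e := 4) (s := s)
    (Cfsg.Agent.H129.CycT.exact_tD4_12 hq hK haz) (by omega) (by omega) hN hmod (by rw [ha, hs]; ring) (by omega)
  -- the torus
  have hfin0 : Finite (F0 φ) := inferInstance
  have hfin1 : Finite (F1 φ) := inferInstance
  have hroot : ∀ (F : Type) [Field F] [Finite F], ℓ ∣ Nat.card Fˣ → Nat.card (rootsOfUnity ℓ F) = ℓ := by
    intro F _ _ hF
    obtain ⟨d, hdo⟩ := exists_prime_orderOf_dvd_card' (G := Fˣ) ℓ hF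
    have hprim : IsPrimitiveRoot d ℓ := by
      rw [← hdo]
      exact IsPrimitiveRoot.orderOf d
    exact (IsPrimitiveRoot.coe_units_iff.2 hprim).card_rootsOfUnity
  have hr0 : Nat.card (rootsOfUnity ℓ (F0 φ)) = ℓ := hroot _ (by
    rw [Nat.card_units, card_Fx0 hφ hK hq.one_lt]
    exact hd)
  have hr1 : Nat.card (rootsOfUnity ℓ (F1 φ)) = ℓ := hroot _ (by
    rw [Nat.card_units, card_Fx1 hφ hK]
    refine hd.trans ?_
    have := Nat.sub_dvd_pow_sub_pow q 1 3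
    rwa [one_pow] at this)
  set ψ : rootsOfUnity ℓ (F0 φ) × rootsOfUnity ℓ (F1 φ) →* ↥(twistedD4 K q) :=
    (tt hφ hle).comp (MonoidHom.prodMap (rootsOfUnity ℓ (F0 φ)).subtype (rootsOfUnity ℓ (F1 φ)).subtype) with hψ
  have hψi : Function.Injective ψ := by
    rw [injective_iff_map_eq_one]
    rintro ⟨x, y⟩ hx
    have h6 := tt_eq_one (p := r) hφ hle hK (by omega) hd (x := (x.1, y.1)) y.2 hx
    exact Prod.ext (Subtype.ext (congrArg Prod.fst h6)) (Subtype.ext (congrArg Prod.snd h6))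
  have hE₀ : Nat.card ψ.range = ℓ ^ 2 := by
    rw [← Nat.card_congr (MonoidHom.ofInjective hψi).toEquiv, Nat.card_prod, hr0, hr1, sq]
  rw [← hE₀]
  refine dvd_of_family' Rg (GG_top hφ hK) T_comm E (fun i χ hχ χ' hχ' x hx => hE2 χ hχ χ' hχ' _ (hPc i) x hx)
    (by omega) (Or.inl (by rw [hW]; omega)) ?_ ?_
  · rintro _ ⟨x, rfl⟩
    exact tt_mem hφ hle _
  · rintro _ ⟨x, rfl⟩ hx1 z z' hz hz' hz0 hz0' hf hf'
    exact hone hφ hle hℓ h5 (by omega) hd (x := (x.1.1, x.2.1)) x.1.2 x.2.2 hx1 z z' hz hz' hz0 hz0' hf hf'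

end Cfsg.Agent.H811.PSq.TwD
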