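import Cfsg.Agent.H954.DR.RowG2
import Cfsg.Agent.H115.HC.Four

/-!
# `G₂(q)`: a degree divisible by `p ^ 2`, `p` odd, unless `5 ≤ p ∣ q - 1` (helper811, S4844)
-/

set_option autoImplicit false

open Cfsg Cfsg.Lie

namespace Cfsg.Agent.H811.PSq

open Cfsg.Agent.H33

/-- `p ^ 2` divides a product with a factor prime to `p` -/
theorem sq_dvd_of {p a b : ℕ} (hp : p.Prime) (ha : ¬ p ∣ a) (h : p ^ 2 ∣ a * b) : p ^ 2 ∣ b :=
  (Nat.Coprime.pow_left 2 ((Nat.Prime.coprime_iff_not_dvd hp).2 ha)).dvd_of_dvd_mul_left h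

theorem card_factor {q : ℕ} (hq : 1 ≤ q) : q ^ 6 * (q ^ 2 - 1) * (q ^ 6 - 1) =
    q ^ 6 * ((q - 1) ^ 2 * ((q + 1) ^ 2 * ((q ^ 2 + q + 1) * (q * (q - 1) + 1)))) := by
  obtain ⟨k, rfl⟩ := Nat.exists_eq_add_of_le hq
  rw [show (1 + k) ^ 2 - 1 = k * (k + 2) from Nat.sub_eq_of_eq_add (by ring),
    show (1 + k) ^ 6 - 1 = k * (k + 2) * ((k + 1) ^ 4 + (k + 1) ^ 2 + 1) from Nat.sub_eq_of_eq_add (by ring),
    Nat.add_sub_cancel_left]
  ring

theorem quartic {q : ℕ} (hq : 1 ≤ q) : q ^ 4 + q ^ 2 + 1 = (q ^ 2 + q + 1) * (q * (q - 1) + 1) := by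
  obtain ⟨k, rfl⟩ := Nat.exists_eq_add_of_le hq
  rw [Nat.add_sub_cancel_left]
  ring

variable {K : Type} [Field K] [Fintype K]

/-- **`G₂(q)`, all odd `p` except `5 ≤ p ∣ q - 1`.** -/
theorem g2_easy (h3 : 3 ≤ Fintype.card K) {p : ℕ} [hp : Fact p.Prime] (hp2 : p ≠ 2)
    (hd : p ^ 2 ∣ Nat.card ↥(chevG2.group K)) (hq : p = 3 ∨ ¬ p ∣ Fintype.card K - 1) :
    IM (p ^ 2) ↥(chevG2.group K) := by
  classical
  have hN : Nat.card ↥(chevG2.group K) = _ := Cfsg.Agent.S1059.result rfl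
  by_cases hpq : p ∣ Fintype.card K
  · -- the characteristic
    obtain ⟨r, f, hr, hch, hf, hcard⟩ := H115.HC.Rows.exists_char K
    have hrp : p = r := by
      rw [hcard] at hpq
      exact (Nat.prime_dvd_prime_iff_eq hp.1 hr).1 (hp.1.dvd_of_dvd_pow hpq)
    subst hrp
    have := H115.HC.Rows.exists_char K
    obtain ⟨χ, hχ, h1⟩ := H167.SteinbergRGD.steinberg_of_hasRGD (Nodes.RGDChev.hasRGD_G2 K p)
    have Q : Sylow p ↥(chevG2.group K) := default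
    exact IM.of_apply_one hχ (h1 Q).1 (Q.pow_dvd_card_of_pow_dvd_card hd)
  have hq6 : ¬ p ∣ Fintype.card K ^ 6 := fun h => hpq (hp.1.dvd_of_dvd_pow h)
  rw [hN, card_factor (by omega)] at hd
  replace hd := sq_dvd_of hp.1 hq6 hd
  set q := Fintype.card K with hqdef
  have h4 : 4 ≤ q := by
    rcases Nat.lt_or_ge q 4 with h | h
    · exfalso
      have hq3 : q = 3 := by omega
      rw [hq3] at hd hpq
      have h1 : p ^ 2 ∣ 5824 := by simpa using hd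
      have hp3 : p ≠ 3 := fun h => hpq (by rw [h])
      have h2 : (p ^ 2) ∣ 2 ^ 6 * 91 := by simpa using h1
      have h3 : p ^ 2 ∣ 91 := sq_dvd_of hp.1 (fun h => hp2 ((Nat.prime_dvd_prime_iff_eq hp.1 Nat.prime_two).1
        (hp.1.dvd_of_dvd_pow h))) h2
      have h4 : p ^ 2 ≤ 91 := Nat.le_of_dvd (by norm_num) h3
      have h5 : p ≤ 9 := by nlinarith
      interval_cases p <;> omega
    · exact h
  by_cases hpe : p = 3
  · subst hpe
    obtain ⟨χ, m, h5, h6, -⟩ := H115.HC.GTwo.char_four (K := K) h4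
    refine ⟨χ, ?_⟩
    rw [h5, ← hqdef]
    have h3E : 3 ∣ q ^ 4 + q ^ 2 + 1 := by
      have h1 : q % 3 = 1 ∨ q % 3 = 2 := by omega
      rcases h1 with h1 | h1 <;> simp [Nat.dvd_iff_mod_eq_zero, Nat.add_mod, Nat.pow_mod, h1]
    have h1 : q % 3 = 1 ∨ q % 3 = 2 := by omega
    rcases h1 with h1 | h1
    · have h7 : 3 ∣ m := h6 3 Nat.prime_three (by norm_num) (by rw [← hqdef]; omega)
      rw [sq]
      exact Nat.mul_dvd_mul (h3E.mul_left _) h7
    · refine Dvd.dvd.mul_right ?_ _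
      rw [sq]
      exact Nat.mul_dvd_mul (by omega) h3E
  have hq1 : ¬ p ∣ q - 1 := hq.resolve_left hpe
  replace hd := sq_dvd_of hp.1 (fun h => hq1 (hp.1.dvd_of_dvd_pow h)) hd
  have h5 : 5 ≤ p := by
    have := hp.1.two_le
    have h4 : p ≠ 4 := by
      rintro rfl
      exact absurd hp.1 (by norm_num)
    omega
  by_cases hq2 : p ∣ q + 1
  · obtain ⟨d₁, d₂, d₃, e1, -, -, hd1, -, -⟩ := H954.DR.RowG2.unip (K := K)
    obtain ⟨χ, hχ⟩ := hd1
    refine ⟨χ, ?_⟩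
    rw [hχ]
    rw [← hqdef] at e1
    refine sq_dvd_of hp.1 (a := 6) ?_ ?_
    · intro h
      have h7 := (Nat.Prime.dvd_mul hp.1).1 (show p ∣ 2 * 3 from h)
      rcases h7 with h7 | h7
      · have := Nat.le_of_dvd (by norm_num) h7
        omega
      · have := Nat.le_of_dvd (by norm_num) h7
        omega
    · rw [e1]
      exact Dvd.dvd.mul_right (Dvd.dvd.mul_left (pow_dvd_pow_of_dvd hq2 2) _) _
  · replace hd := sq_dvd_of hp.1 (fun h => hq2 (hp.1.dvd_of_dvd_pow h)) hd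
    rw [← quartic (by omega)] at hd
    obtain ⟨χ, m, h5, -, -⟩ := H115.HC.GTwo.char_four (K := K) h4
    refine ⟨χ, ?_⟩
    rw [h5]
    exact (hd.mul_left _).mul_right _

end Cfsg.Agent.H811.PSq
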