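import Cfsg.Agent.H811.PSq.GTwoE
import Cfsg.Agent.H696.PSq.Defs

/-!
# `G₂(q)`, `q ≥ 3`: a degree divisible by `p ^ 2` for the odd primes with `p ^ 2 ∣ |S|` (helper811, S4844)
-/

set_option autoImplicit false

open Cfsg Cfsg.Lie

namespace Cfsg.Agent.H811.PSq

universe u

/-- **`G₂(q)`.** -/
theorem sq_G2 {S : Type u} [Group S] [Finite S] (h : Lie.IsoChevG2 S) (_hs : IsSimpleGroup S) {p : ℕ}
    [hp : Fact p.Prime] (hp2 : p ≠ 2) (hd : p ^ 2 ∣ Nat.card S) : Cfsg.Agent.H33.IM (p ^ 2) S := by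
  obtain ⟨F, _, _, h3, ⟨e⟩⟩ := h
  refine H33.IM.of_equiv e ?_
  rw [Nat.card_congr e.toEquiv] at hd
  by_cases hq : p = 3 ∨ ¬ p ∣ Fintype.card F - 1
  · exact g2_easy h3 hp2 hd hq
  · push Not at hq
    have h5 : 5 ≤ p := by
      have := hp.1.two_le
      have h4 : p ≠ 4 := by
        rintro rfl
        exact absurd hp.1 (by norm_num)
      have := hq.1
      omega
    exact GTwo.g2_cusp hp.1 h5 hq.2

end Cfsg.Agent.H811.PSq
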