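import Cfsg.Agent.H504.ZerosCyc
import Cfsg.Agent.H504.ZerosExc
import Cfsg.Agent.H504.ZerosMod
import Cfsg.Agent.H678.CCData
import Cfsg.Agent.H659.TwF4Ord
import Cfsg.Agent.H129.CycRow
import Cfsg.Agent.S1062
import Cfsg.Agent.S1068
import Cfsg.Agent.Lib.Zsigmondy

/-!
# A family of nine exceptional characters of `²F₄(q)` (helper811, S4844)

* `exists_family_embed` : the exceptional characters of the intersection with an overgroup's cyclic torus;
* `exists_prime_109` : a prime `l ≥ 109` dividing `q⁴ - q² + 1`;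
* `exists_family_tf4` : nine irreducible characters of `²F₄(q)` which agree on all the subgroups of order prime to
  `q⁴ - q² + 1`.
-/

set_option autoImplicit false

open scoped ComplexConjugate
open Cfsg Cfsg.Lie

namespace Cfsg.Agent.H811.PSq.TwF

open Cfsg.Agent.H504.Zeros Cfsg.Agent.H504.ZeroTI Cfsg.Agent.H129.CycT Cfsg.Agent.Characters.CCBasic
  Cfsg.Agent.Characters.CCEstimates Cfsg.Agent.Characters.CCCounting

universe u v

/-- the exceptional characters of the intersection with a `CC`-subgroup of an overgroup -/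
theorem exists_family_embed {H : Type v} {G : Type u} [Group H] [Finite H] [Group G] [Fintype G] (φ : G →* H)
    (hφ : Function.Injective φ) {T : Subgroup H} (hT : CC T) {a e l s : ℕ} (ha : Nat.card T = a) (he : eIdx T ≤ e)
    {x : G} (hx : orderOf x = l) (h1 : 1 < l) (hxT : φ x ∈ T) (h2 : 2 ≤ s) (hs : e * s < l) :
    ∃ E : Finset (IrrCharacter G), s ≤ E.card ∧ ∀ χ ∈ E, ∀ χ' ∈ E, ∀ P : Subgroup G, (Nat.card P).Coprime a →
      ∀ x ∈ P, (χ : G → ℂ) x = (χ' : G → ℂ) x := by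
  classical
  obtain ⟨A, hA⟩ : ∃ A, A = T.comap φ := ⟨_, rfl⟩
  have hm : ∀ y, y ∈ A ↔ φ y ∈ T := fun y => by rw [hA, Subgroup.mem_comap]
  have hne : ∀ y : G, y ≠ 1 → φ y ≠ 1 := fun y hy h => hy (hφ (by rw [h, map_one]))
  have hx1 : x ≠ 1 := by
    rintro rfl
    rw [orderOf_one] at hx
    omega
  have hxA : x ∈ A := (hm x).2 hxT
  have hcc : CC A := by
    refine ⟨fun y hy z hz => hφ ?_, fun y hy hy1 => ?_⟩
    · rw [map_mul, map_mul]
      exact hT.comm _ ((hm y).1 hy) _ ((hm z).1 hz)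
    · ext z
      rw [Subgroup.mem_centralizer_singleton_iff, hm, hT.mem_iff ((hm y).1 hy) (hne y hy1), ← map_mul, ← map_mul,
        hφ.eq_iff, eq_comm]
  have hCC : IsCC A := by
    refine ⟨?_, hcc.cent⟩
    rintro h
    rw [h, Subgroup.mem_bot] at hxA
    exact hx1 hxA
  -- the automizer
  have heA : eIdx A ≤ e := by
    refine le_trans ?_ he
    rw [← hcc.card_conj (a := ⟨x, hxA⟩) fun h => hx1 (congrArg Subtype.val h),
      ← hT.card_conj (a := ⟨φ x, hxT⟩) fun h => hne x hx1 (congrArg Subtype.val h)]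
    refine Nat.card_le_card_of_injective (fun b : {b : A // IsConj x (b : G)} =>
      (⟨⟨φ (b : A), (hm _).1 (b : A).2⟩, ?_⟩ : {b : T // IsConj (φ x) (b : H)})) ?_
    · obtain ⟨c, hc⟩ := isConj_iff.1 b.2
      exact isConj_iff.2 ⟨φ c, by rw [← map_mul, ← map_inv, ← map_mul, hc]⟩
    · intro b c hbc
      have h4 : φ ((b : A) : G) = φ ((c : A) : G) :=
        congrArg (fun b : {b : T // IsConj (φ x) (b : H)} => ((b : T) : H)) hbc
      exact Subtype.ext (Subtype.ext (hφ h4))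
  -- the orders
  have hda : Nat.card A ∣ a := by
    rw [← ha]
    have h3 : Function.Injective (φ.subgroupComap T) := by
      intro b c hbc
      exact Subtype.ext (hφ (congrArg Subtype.val hbc))
    rw [hA]
    exact Subgroup.card_dvd_of_injective (φ.subgroupComap T) h3
  have hlA : l ≤ Nat.card A := by
    rw [← hx]
    have h3 := orderOf_le_card (x := (⟨x, hxA⟩ : A))
    rwa [← Subgroup.orderOf_coe] at h3
  obtain ⟨m, hm'⟩ := exists_m hcc
  have hsm : s ≤ m := by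
    by_contra hcon
    have h3 : e * s ≤ e * m := by
      have h4 : eIdx A * m ≤ e * m := Nat.mul_le_mul_right m heA
      omega
    have h4 : e * s < eIdx A * m + 1 := by omega
    have h5 : eIdx A * m ≤ e * m := Nat.mul_le_mul_right m heA
    have h6 : e * m ≤ e * s := Nat.mul_le_mul_left e (by omega)
    have he0 : 0 < e := by
      have h7 : 0 < eIdx A := Nat.pos_of_ne_zero Subgroup.index_ne_zero_of_finite
      omega
    have h8 : e * m < e * s := Nat.mul_lt_mul_of_pos_left (by omega) he0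
    omega
  have hlen : len A = eIdx A := by
    have h3 := len_mul_card A
    have h4 := eIdx_mul A
    have h5 : len A * Nat.card A = eIdx A * Nat.card A := by rw [h3, mul_comm (eIdx A), h4]
    exact Nat.eq_of_mul_eq_mul_right Nat.card_pos h5
  have : Finite (IrrCharacter G) := Cfsg.Agent.Characters.Core.finite_irr
  have : Fintype (IrrCharacter G) := Fintype.ofFinite _
  obtain ⟨D⟩ := Cfsg.Agent.H678.CCExact.nonempty_ccData hCC hlen (s := m) (by rw [hm', mul_comm]) (by omega)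
  refine ⟨D.R, D.hcard.symm ▸ hsm, fun χ hχ χ' hχ' P hP x hx => D.agree χ hχ χ' hχ' x ?_⟩
  rintro ⟨b, hb, hb1, hcj⟩
  have h4 : orderOf x = orderOf b := by
    obtain ⟨c, rfl⟩ := isConj_iff.1 hcj
    exact ((MulAut.conj c).orderOf_eq b)
  have h5 : orderOf b ∣ a := by
    have := orderOf_dvd_natCard (⟨b, hb⟩ : A)
    rw [← Subgroup.orderOf_coe] at this
    exact this.trans hda
  have h6 : orderOf x ∣ Nat.card P := by
    have := orderOf_dvd_natCard (⟨x, hx⟩ : P)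
    rwa [← Subgroup.orderOf_coe] at this
  rw [h4] at h6
  have h7 := Nat.dvd_gcd h6 h5
  rw [hP.gcd_eq_one, Nat.dvd_one, orderOf_eq_one_iff] at h7
  exact hb1 h7

/-- a prime `l ≥ 109` dividing `q⁴ - q² + 1` -/
theorem exists_prime_109 {m : ℕ} (hm : 1 ≤ m) :
    ∃ l : ℕ, l.Prime ∧ l ∣ (2 ^ (2 * m + 1)) ^ 4 - (2 ^ (2 * m + 1)) ^ 2 + 1 ∧ 109 ≤ l := by
  rcases (show m = 1 ∨ m = 2 ∨ m = 3 ∨ 4 ≤ m by omega) with rfl | rfl | rfl | h4
  · exact ⟨109, by norm_num, by norm_num, le_rfl⟩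
  · exact ⟨1321, by norm_num, by norm_num, by norm_num⟩
  · exact ⟨1429, by norm_num, by norm_num, by norm_num⟩
  · obtain ⟨l, hl, hd, h12, -⟩ := Cfsg.Agent.Lib.Zsigmondy.exists_primitive (a := 2) (n := 12 * (2 * m + 1)) le_rfl
      (by omega) (fun h => by omega) (fun h => by omega)
    have h5 := Nat.le_of_dvd (by have := hl.two_le; omega) h12
    refine ⟨l, hl, ?_, by omega⟩
    have h6 := (hd (12 * (2 * m + 1))).2 dvd_rfl
    have h7 : ¬ l ∣ 2 ^ (6 * (2 * m + 1)) - 1 := fun h => by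
      have := Nat.le_of_dvd (by omega) ((hd _).1 h)
      omega
    have h8 : ¬ l ∣ 2 ^ (4 * (2 * m + 1)) - 1 := fun h => by
      have := Nat.le_of_dvd (by omega) ((hd _).1 h)
      omega
    have e1 : ∀ k : ℕ, 2 ^ (k * (2 * m + 1)) = (2 ^ (2 * m + 1)) ^ k := fun k => by rw [← pow_mul, mul_comm k]
    rw [e1] at h6 h7 h8
    have hq1 : 1 ≤ 2 ^ (2 * m + 1) := Nat.one_le_two_pow
    generalize 2 ^ (2 * m + 1) = q at *
    have hle2 : q ^ 2 ≤ q ^ 4 := Nat.pow_le_pow_right hq1 (by norm_num)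
    have c6 : 1 ≤ q ^ 6 := Nat.one_le_pow _ _ hq1
    have c4 : 1 ≤ q ^ 4 := Nat.one_le_pow _ _ hq1
    have c12 : 1 ≤ q ^ 12 := Nat.one_le_pow _ _ hq1
    have e2 : q ^ 12 - 1 = (q ^ 6 - 1) * ((q ^ 2 + 1) * (q ^ 4 - q ^ 2 + 1)) := by
      zify [hle2, c6, c12]
      ring
    rw [e2] at h6
    rcases hl.dvd_mul.1 h6 with h | h
    · exact absurd h h7
    · rcases hl.dvd_mul.1 h with h | h
      · refine absurd ?_ h8
        have e3 : q ^ 4 - 1 = (q ^ 2 + 1) * (q ^ 2 - 1) := by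
          have c2 : 1 ≤ q ^ 2 := Nat.one_le_pow _ _ hq1
          zify [c2, c4]
          ring
        rw [e3]
        exact h.mul_right _
      · exact h

/-- **nine characters of `²F₄(q)` agreeing on the subgroups of order prime to `q⁴ - q² + 1`** -/
theorem exists_family_tf4 {K : Type} [Field K] [Fintype K] {m : ℕ} (hm : 1 ≤ m)
    (hK : Fintype.card K = 2 ^ (2 * m + 1)) [Fintype ↥(twistedF4 K (2 ^ m))] :
    ∃ E : Finset (IrrCharacter ↥(twistedF4 K (2 ^ m))), 9 ≤ E.card ∧ ∀ χ ∈ E, ∀ χ' ∈ E,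
      ∀ P : Subgroup ↥(twistedF4 K (2 ^ m)),
        (Nat.card P).Coprime (Fintype.card K ^ 4 - Fintype.card K ^ 2 + 1) →
        ∀ x ∈ P, (χ : ↥(twistedF4 K (2 ^ m)) → ℂ) x = (χ' : ↥(twistedF4 K (2 ^ m)) → ℂ) x := by
  obtain ⟨l, hl, hld, hl109⟩ := exists_prime_109 hm
  have := Fact.mk hl
  have hlG : l ∣ Nat.card ↥(twistedF4 K (2 ^ m)) := by
    rw [Cfsg.Agent.S1068.result hK]
    refine Dvd.dvd.mul_left ?_ _
    have hq1 : 1 ≤ 2 ^ (2 * m + 1) := Nat.one_le_two_pow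
    generalize 2 ^ (2 * m + 1) = q at *
    have hle2 : q ^ 2 ≤ q ^ 4 := Nat.pow_le_pow_right hq1 (by norm_num)
    have e : q ^ 6 + 1 = (q ^ 4 - q ^ 2 + 1) * (q ^ 2 + 1) := by
      zify [hle2]
      ring
    rw [e]
    exact hld.mul_right _
  obtain ⟨x, hx⟩ := exists_prime_orderOf_dvd_card' l hlG
  rw [← hK] at hld
  have hq2 : 2 ≤ Fintype.card K := Fintype.one_lt_card
  obtain ⟨q, hq⟩ : ∃ q, q = Fintype.card K := ⟨_, rfl⟩
  have hcard := Cfsg.Agent.S1062.result (F := K) hq.symm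
  rw [← hq] at hld hq2 ⊢
  have hc : (Nat.card ↥(chevF4.group K) : ℤ) = (q : ℤ) ^ 24 * ((q : ℤ) ^ 2 - 1) *
      ((q : ℤ) ^ 6 - 1) * ((q : ℤ) ^ 8 - 1) * ((q : ℤ) ^ 12 - 1) := by
    rw [hcard]
    push_cast [H504.ZerosExc.cast_sub (d := 2) (show 1 ≤ q by omega),
      H504.ZerosExc.cast_sub (d := 6) (show 1 ≤ q by omega),
      H504.ZerosExc.cast_sub (d := 8) (show 1 ≤ q by omega), H504.ZerosExc.cast_sub (d := 12) (show 1 ≤ q by omega)]
    ring
  obtain ⟨a, ha⟩ : ∃ a, a = q ^ 4 - q ^ 2 + 1 := ⟨_, rfl⟩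
  have h4 : q ^ 4 = q ^ 2 * q ^ 2 := by ring
  have h9 : 4 ≤ q ^ 2 := by nlinarith
  have hle : q ^ 2 ≤ q ^ 4 := by nlinarith
  have haz : (a : ℤ) = 1 - (q : ℤ) ^ 2 + (q : ℤ) ^ 4 := by
    rw [ha]
    push_cast [Nat.cast_sub hle]
    ring
  have ha' : a + q ^ 2 = q ^ 4 + 1 := by omega
  obtain ⟨T, hT, hcT, hz⟩ := H129.CycT.exact_F4_12 hq.symm haz
  have hA := cc_of_cyclic hT hz
  have he : eIdx T = 12 := by
    refine eIdx_of_int hA hcT (by nlinarith) (by nlinarith)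
      (N := (q : ℤ) ^ 24 * ((q : ℤ) ^ 2 - 1) * ((q : ℤ) ^ 6 - 1) * ((q : ℤ) ^ 8 - 1) *
        (-1 - (q : ℤ) ^ 2 + (q : ℤ) ^ 6 + (q : ℤ) ^ 8)) ?_ ?_
    · rw [hc, haz]
      ring
    · have h5 := H504.ZerosExc.zmod_zero haz
      push_cast at h5 ⊢
      exact H504.ZerosMod.mod_F4_12 h5
  rw [← ha] at hld ⊢
  obtain ⟨g, hg, -⟩ := H129.CycT.centralizer_conj hT hl (hcT ▸ hld) (fun y hy hyr => (hz y hy (by
      rintro rfl
      rw [orderOf_one] at hyr
      exact hl.one_lt.ne hyr)).le) (x := H659.TwF4Ord.inc K (2 ^ m) x)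
    (by rw [orderOf_injective _ (H659.TwF4Ord.inc_injective _), hx])
  exact exists_family_embed ((MulAut.conj g).toMonoidHom.comp (H659.TwF4Ord.inc K (2 ^ m)))
    ((MulAut.conj g).injective.comp (H659.TwF4Ord.inc_injective _)) hA hcT he.le hx hl.one_lt hg
    (by norm_num) (by omega)

end Cfsg.Agent.H811.PSq.TwF
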